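import Cfsg.Agent.H917.Conj.Basic
import Cfsg.Agent.Characters.CCCounting

/-!
# The conjugation character: CC-subgroups with small normalisers (helper206, S4792)

* `row_of_ccw` : a CC-subgroup `C` of order `t`, `|N(C)| ≤ w t` and `w t (t - 1) ≤ d²` for the degrees `d` of the
  nontrivial irreducible characters.
-/

set_option autoImplicit false

open Cfsg
open scoped ComplexConjugate

namespace Cfsg.Agent.H206.Conj

open Cfsg.Agent.Characters.Core Cfsg.Agent.H430.Conj Cfsg.Agent.Characters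

universe u

theorem sum_norm_sq_eq {G : Type u} [Group G] [Fintype G] {χ : G → ℂ} (hχ : IsIrrCharacter G χ) :
    ∑ g : G, ‖χ g‖ ^ 2 = (Nat.card G : ℝ) := by
  have h1 := classInner_irr_self hχ
  rw [classInner_self_eq_ofReal] at h1
  have h2 : (Nat.card G : ℝ)⁻¹ * ∑ g : G, Complex.normSq (χ g) = 1 := by exact_mod_cast h1
  have h3 : (Nat.card G : ℝ) ≠ 0 := by exact_mod_cast Nat.card_pos.ne'
  have h4 : ∑ g : G, Complex.normSq (χ g) = (Nat.card G : ℝ) := by
    field_simp at h2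
    exact h2
  rw [← h4]
  refine Finset.sum_congr rfl fun g _ => ?_
  rw [Complex.normSq_eq_norm_sq]

/-- **Tool M with the index of the normaliser.** `C` is a CC-subgroup of order `t`, `|N(C)| ≤ w t`, the degrees `d` of
the nontrivial irreducible characters satisfy `w t (t - 1) ≤ d²`. -/
theorem row_of_ccw {G : Type u} [Group G] [Finite G] {C : Subgroup G} (hC1 : C ≠ ⊥)
    (hC : ∀ c ∈ C, c ≠ 1 → Subgroup.centralizer {c} = C) {w : ℕ}
    (hw : Nat.card (Subgroup.normalizer (C : Set G)) ≤ w * Nat.card C)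
    (hd : ∀ (χ : G → ℂ) (d : ℕ), IsIrrCharacter G χ → χ ≠ 1 → χ 1 = d →
      w * Nat.card C * (Nat.card C - 1) ≤ d ^ 2) : Row G := by
  classical
  intro χ hχ
  obtain ⟨x, hx, hx1⟩ := C.bot_or_exists_ne_one.resolve_left hC1
  refine ⟨x, ?_⟩
  rw [hC x hx hx1]
  by_cases h1 : χ = 1
  · rw [h1]
    exact hasFix_one C
  intro h0
  obtain ⟨d, hdpos, hd1⟩ := isIrr_apply_one hχ
  have hdd := hd χ d hχ h1 hd1
  have := Fintype.ofFinite C
  have := Fintype.ofFinite G
  have ht : 2 ≤ Nat.card C := by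
    have : Nontrivial C := (Subgroup.nontrivial_iff_ne_bot C).2 hC1
    exact Finite.one_lt_card
  set t := Nat.card C with htd
  have hcc : CCBasic.IsCC C := ⟨hC1, hC⟩
  have hclass : ∀ g h : G, ‖χ (h * g * h⁻¹)‖ ^ 2 = ‖χ g‖ ^ 2 := by
    intro g h
    rw [isIrr_isClassFunction hχ g h]
  have hsum := CCCounting.sum_inConj hcc (fun g => ‖χ g‖ ^ 2) hclass
  -- the norm
  have hnorm : (∑ y ∈ Finset.univ.filter (fun y : G => CCCounting.InConj C y), ‖χ y‖ ^ 2) + (d : ℝ) ^ 2 ≤
      (Nat.card G : ℝ) := by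
    rw [← sum_norm_sq_eq hχ]
    have h2 : (1 : G) ∉ Finset.univ.filter (fun y : G => CCCounting.InConj C y) := by
      rw [Finset.mem_filter]
      exact fun h => CCCounting.one_not_inConj C h.2
    have h3 : ‖χ 1‖ ^ 2 = (d : ℝ) ^ 2 := by rw [hd1, Complex.norm_natCast]
    have h4 := Finset.sum_insert (f := fun g : G => ‖χ g‖ ^ 2) h2
    rw [← h3, add_comm, ← h4]
    exact Finset.sum_le_sum_of_subset_of_nonneg (Finset.subset_univ _) fun _ _ _ => by positivity
  -- the sum over `C`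
  rw [finsum_eq_sum_of_fintype, ← Finset.add_sum_erase _ _ (Finset.mem_univ (1 : C))] at h0
  have h2 : ‖χ 1‖ ≤ ∑ c ∈ Finset.univ.erase (1 : C), ‖χ c‖ := by
    have h3 : χ 1 = - ∑ c ∈ Finset.univ.erase (1 : C), χ c := by
      rw [OneMemClass.coe_one] at h0
      exact eq_neg_of_add_eq_zero_left h0
    rw [h3, norm_neg]
    exact norm_sum_le _ _
  set SS := ∑ c ∈ Finset.univ.erase (1 : C), ‖χ c‖ ^ 2 with hSS
  have hcs : (∑ c ∈ Finset.univ.erase (1 : C), ‖χ c‖) ^ 2 ≤ ((t : ℝ) - 1) * SS := by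
    have h3 := sq_sum_le_card_mul_sum_sq (s := Finset.univ.erase (1 : C)) (f := fun c : C => ‖χ c‖)
    rw [Finset.card_erase_of_mem (Finset.mem_univ _), Finset.card_univ, ← Nat.card_eq_fintype_card, ← htd,
      Nat.cast_sub (by omega), Nat.cast_one] at h3
    exact h3
  have hGpos : (0 : ℝ) < Nat.card G := by exact_mod_cast Nat.card_pos
  have hSlt : SS < (w : ℝ) * t := by
    have h3 : Finset.univ.filter (fun a : C => a ≠ 1) = Finset.univ.erase (1 : C) := Finset.filter_ne' _ _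
    rw [h3, ← hSS] at hsum
    have h4 : (∑ y ∈ Finset.univ.filter (fun y : G => CCCounting.InConj C y), ‖χ y‖ ^ 2) < (Nat.card G : ℝ) := by
      have : (0 : ℝ) < (d : ℝ) ^ 2 := by positivity
      linarith
    have hNpos : (0 : ℝ) < Nat.card (Subgroup.normalizer (C : Set G)) := by exact_mod_cast Nat.card_pos
    have h5 : (Nat.card G : ℝ) * SS < Nat.card (Subgroup.normalizer (C : Set G)) * (Nat.card G : ℝ) := by
      rw [← hsum]
      exact mul_lt_mul_of_pos_left h4 hNpos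
    have h6 : SS < Nat.card (Subgroup.normalizer (C : Set G)) := by
      rw [mul_comm] at h5
      exact lt_of_mul_lt_mul_right h5 hGpos.le
    have h7 : ((Nat.card (Subgroup.normalizer (C : Set G)) : ℕ) : ℝ) ≤ ((w * t : ℕ) : ℝ) := by exact_mod_cast hw
    push_cast at h7
    linarith
  have ht' : (2 : ℝ) ≤ t := by exact_mod_cast ht
  have h7 : (d : ℝ) ^ 2 < ((t : ℝ) - 1) * (w * t) := by
    have h8 : (d : ℝ) ^ 2 ≤ (∑ c ∈ Finset.univ.erase (1 : C), ‖χ c‖) ^ 2 := by
      rw [hd1, Complex.norm_natCast] at h2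
      gcongr
    have h9 : ((t : ℝ) - 1) * SS < ((t : ℝ) - 1) * (w * t) := mul_lt_mul_of_pos_left hSlt (by linarith)
    linarith
  have h8 : (w : ℝ) * t * (t - 1) ≤ (d : ℝ) ^ 2 := by
    have : (((w * t * (t - 1) : ℕ)) : ℝ) ≤ ((d ^ 2 : ℕ) : ℝ) := by exact_mod_cast hdd
    rw [Nat.cast_mul, Nat.cast_sub (by omega)] at this
    push_cast at this
    exact this
  nlinarith

end Cfsg.Agent.H206.Conj
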